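import Cfsg.Agent.H774.CommPow

/-!
# An element-wise Thompson replacement (helper774)

Let `A` be an abelian subgroup of largest order of the finite `p`-group `T`, let `V` be an abelian subgroup of `T`
normalized by `A`, and `y ∈ V` not centralized by `A`. Then some element of `A` does not centralize `y` but
centralizes `y^p`.
-/

set_option autoImplicit false

namespace Cfsg.Agent.H774

open scoped commutatorElement

variable {Ω : Type*} [Group Ω]

/-- The algebra: if `y = [a,y] e` with `e` centralized by the abelian `A`, then `[b,y] = [a,[b,y]]` for `b ∈ A`. -/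
theorem comm_eq_comm_comm (V : Subgroup Ω) (hV : ∀ a ∈ V, ∀ b ∈ V, a * b = b * a) (a b y e : Ω)
    (hab : a * b = b * a) (hyV : y ∈ V) (heV : e ∈ V)
    (haV : ∀ v ∈ V, a * v * a⁻¹ ∈ V) (hbV : ∀ v ∈ V, b * v * b⁻¹ ∈ V)
    (hbe : b * e * b⁻¹ = e) (hy : y = (a * y * a⁻¹ * y⁻¹) * e) :
    b * y * b⁻¹ * y⁻¹ = a * (b * y * b⁻¹ * y⁻¹) * a⁻¹ * (b * y * b⁻¹ * y⁻¹)⁻¹ := by
  let _ : CommGroup V :=
    { (inferInstance : Group V) with
      mul_comm := fun a b => Subtype.ext (hV a a.2 b b.2) }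
  have h2 : b * y * b⁻¹ = (a * (b * y * b⁻¹) * a⁻¹ * (b * y * b⁻¹)⁻¹) * e := by
    calc b * y * b⁻¹ = b * ((a * y * a⁻¹ * y⁻¹) * e) * b⁻¹ := by rw [← hy]
      _ = (b * a) * y * (b * a)⁻¹ * (b * y * b⁻¹)⁻¹ * (b * e * b⁻¹) := by group
      _ = (a * b) * y * (a * b)⁻¹ * (b * y * b⁻¹)⁻¹ * e := by rw [hbe, hab]
      _ = _ := by group
  let Y : Additive V := Additive.ofMul ⟨y, hyV⟩
  let E : Additive V := Additive.ofMul ⟨e, heV⟩
  let Ya : Additive V := Additive.ofMul ⟨a * y * a⁻¹, haV _ hyV⟩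
  let Yb : Additive V := Additive.ofMul ⟨b * y * b⁻¹, hbV _ hyV⟩
  let Yab : Additive V := Additive.ofMul ⟨a * (b * y * b⁻¹) * a⁻¹, haV _ (hbV _ hyV)⟩
  have e1 : Y = Ya + -Y + E := Additive.toMul.injective (Subtype.ext hy)
  have e2 : Yb = Yab + -Yb + E := Additive.toMul.injective (Subtype.ext h2)
  have e3 : Ya = Y + Y - E := by
    rw [eq_sub_iff_add_eq]
    calc Ya + E = (Ya + -Y + E) + Y := by abel
      _ = Y + Y := by rw [← e1]
  have e4 : Yab = Yb + Yb - E := by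
    rw [eq_sub_iff_add_eq]
    calc Yab + E = (Yab + -Yb + E) + Yb := by abel
      _ = Yb + Yb := by rw [← e2]
  have e5 : Yb + -Y = (Yab + -Ya) + -(Yb + -Y) := by
    rw [e3, e4]
    abel
  have e6 := congrArg (fun z : Additive V => ((Additive.toMul z : V) : Ω)) e5
  have e7 : b * y * b⁻¹ * y⁻¹ =
      (a * (b * y * b⁻¹) * a⁻¹ * (a * y * a⁻¹)⁻¹) * (b * y * b⁻¹ * y⁻¹)⁻¹ := e6
  have e8 : a * (b * y * b⁻¹) * a⁻¹ * (a * y * a⁻¹)⁻¹ = a * (b * y * b⁻¹ * y⁻¹) * a⁻¹ := by group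
  rw [← e8]
  exact e7

/-- An element `u` of a nilpotent subgroup with `u = [a,u]` is trivial. -/
theorem eq_one_of_eq_comm (T : Subgroup Ω) (hT : Group.IsNilpotent T) (a u : Ω) (ha : a ∈ T)
    (hu : u ∈ T) (h : u = a * u * a⁻¹ * u⁻¹) : u = 1 := by
  obtain ⟨n, hn⟩ := (Subgroup.isNilpotent_iff_lowerCentralSeries T).1 hT
  have key : ∀ k : ℕ, u ∈ T.lowerCentralSeries k := by
    intro k
    induction k with
    | zero => exact hu
    | succ k ih =>
      rw [Subgroup.lowerCentralSeries_succ]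
      have h1 : ⁅u, a⁆ ∈ ⁅T.lowerCentralSeries k, T⁆ := Subgroup.commutator_mem_commutator ih ha
      have h2 := Subgroup.inv_mem _ h1
      rw [commutatorElement_inv, commutatorElement_def, ← h] at h2
      exact h2
  have := key n
  rwa [hn, Subgroup.mem_bot] at this

/-- **Replacement, element-wise form.** -/
theorem exists_mem_commute_pow {p : ℕ} [Fact p.Prime] (T A V : Subgroup Ω) [Finite T]
    (hT : IsPGroup p T) (hAT : A ≤ T) (hA : ∀ a ∈ A, ∀ b ∈ A, a * b = b * a)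
    (hmax : ∀ B : Subgroup Ω, B ≤ T → (∀ a ∈ B, ∀ b ∈ B, a * b = b * a) → Nat.card B ≤ Nat.card A)
    (hVT : V ≤ T) (hV : ∀ a ∈ V, ∀ b ∈ V, a * b = b * a)
    (hAV : ∀ a ∈ A, ∀ v ∈ V, a * v * a⁻¹ ∈ V) (y : Ω) (hy : y ∈ V)
    (hnc : ∃ a ∈ A, a * y ≠ y * a) :
    ∃ a ∈ A, a * y ≠ y * a ∧ a * y ^ p = y ^ p * a := by
  classical
  have hfA : Finite A := Finite.of_injective _ (Subgroup.inclusion_injective hAT)
  have hfV : Finite V := Finite.of_injective _ (Subgroup.inclusion_injective hVT)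
  -- commutators with `y`
  let M : Subgroup Ω := Subgroup.closure {m | ∃ a ∈ A, m = a * y * a⁻¹ * y⁻¹}
  have hcV : ∀ a ∈ A, a * y * a⁻¹ * y⁻¹ ∈ V := fun a ha => V.mul_mem (hAV a ha y hy) (V.inv_mem hy)
  have hMV : M ≤ V := by
    rw [Subgroup.closure_le]
    rintro _ ⟨a, ha, rfl⟩
    exact hcV a ha
  have hmemM : ∀ a ∈ A, a * y * a⁻¹ * y⁻¹ ∈ M := fun a ha => Subgroup.subset_closure ⟨a, ha, rfl⟩
  let A1 : Subgroup Ω := A ⊓ Subgroup.centralizer (M : Set Ω)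
  have hA1 : ∀ a ∈ A1, ∀ m ∈ M, a * m = m * a := fun a ha m hm =>
    (Subgroup.mem_centralizer_iff.1 ha.2 m hm).symm
  -- the main claim
  have main : ∃ a ∈ A1, a * y ≠ y * a := by
    by_contra hcon
    push Not at hcon
    -- `C_V(A1)`
    let D : Subgroup Ω := V ⊓ Subgroup.centralizer (A1 : Set Ω)
    have hyD : y ∈ D := ⟨hy, Subgroup.mem_centralizer_iff.2 fun a ha => hcon a ha⟩
    have hfD : Finite D := Finite.of_injective _ (Subgroup.inclusion_injective (inf_le_left : D ≤ V))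
    have hfA1 : Finite A1 :=
      Finite.of_injective _ (Subgroup.inclusion_injective (inf_le_left : A1 ≤ A))
    let E : Subgroup Ω := A ⊓ V
    have hfE : Finite E := Finite.of_injective _ (Subgroup.inclusion_injective (inf_le_left : E ≤ A))
    have hEA1 : E ≤ A1 := by
      intro e he
      refine ⟨he.1, Subgroup.mem_centralizer_iff.2 fun m hm => ?_⟩
      exact hV m (hMV hm) e he.2
    have hED : E ≤ D := by
      intro e he
      refine ⟨he.2, Subgroup.mem_centralizer_iff.2 fun a ha => hA a ha.1 e he.1⟩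
    have hMD : M ≤ D := by
      intro m hm
      exact ⟨hMV hm, Subgroup.mem_centralizer_iff.2 fun a ha => hA1 a ha m hm⟩
    -- counting 1
    have hcount1 : Nat.card A1 * Nat.card D ≤ Nat.card A * Nat.card E := by
      refine card_mul_card_le A1 D ?_ _ _ ?_ ?_
      · intro a ha d hd
        exact Subgroup.mem_centralizer_iff.1 hd.2 a ha
      · refine Nat.card_le_card_of_injective
          (Subgroup.inclusion (show A1 ⊓ D ≤ E from fun x hx => ⟨hx.1.1, hx.2.1⟩))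
          (Subgroup.inclusion_injective _)
      · refine hmax _ (sup_le (inf_le_left.trans hAT) (inf_le_left.trans hVT)) ?_
        have hcomm : ∀ a ∈ (A1 : Set Ω) ∪ (D : Set Ω), ∀ b ∈ (A1 : Set Ω) ∪ (D : Set Ω),
            a * b = b * a := by
          rintro a (ha | ha) b (hb | hb)
          · exact hA a ha.1 b hb.1
          · exact Subgroup.mem_centralizer_iff.1 hb.2 a ha
          · exact (Subgroup.mem_centralizer_iff.1 ha.2 b hb).symm
          · exact hV a ha.1 b hb.1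
        have hsup : A1 ⊔ D = Subgroup.closure ((A1 : Set Ω) ∪ (D : Set Ω)) := by
          rw [Subgroup.closure_union, Subgroup.closure_eq, Subgroup.closure_eq]
        rw [hsup]
        intro a ha b hb
        have h1 := (Subgroup.isMulCommutative_closure hcomm).is_comm.comm ⟨a, ha⟩ ⟨b, hb⟩
        exact congrArg Subtype.val h1
    -- the map `(a, e) ↦ [a,y] e`
    let Ψ : A × E → D := fun x =>
      ⟨((x.1 : Ω) * y * (x.1 : Ω)⁻¹ * y⁻¹) * x.2, D.mul_mem (hMD (hmemM _ x.1.2)) (hED x.2.2)⟩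
    have hΨ : ∀ x x' : A × E, Ψ x = Ψ x' → ((x.1 : Ω))⁻¹ * x'.1 ∈ A1 := by
      rintro ⟨a, e⟩ ⟨b, f⟩ h
      have h1 : ((a : Ω) * y * (a : Ω)⁻¹ * y⁻¹) * e = ((b : Ω) * y * (b : Ω)⁻¹ * y⁻¹) * f :=
        congrArg Subtype.val h
      refine ⟨A.mul_mem (A.inv_mem a.2) b.2, ?_⟩
      -- `a⁻¹ b` centralizes `[c,y]` for all `c ∈ A`
      show (a : Ω)⁻¹ * b ∈ Subgroup.centralizer (M : Set Ω)
      rw [Subgroup.mem_centralizer_iff]
      have hle : M ≤ Subgroup.centralizer ({(a : Ω)⁻¹ * b} : Set Ω) := by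
        rw [Subgroup.closure_le]
        rintro _ ⟨c, hc, rfl⟩
        rw [SetLike.mem_coe, Subgroup.mem_centralizer_iff]
        intro z hz
        rw [Set.mem_singleton_iff] at hz
        subst hz
        -- in `V`
        let _ : CommGroup V :=
          { (inferInstance : Group V) with
            mul_comm := fun a b => Subtype.ext (hV a a.2 b b.2) }
        have hca : c * a = a * c := hA c hc a a.2
        have hcb : c * b = b * c := hA c hc b b.2
        have hce : c * e * c⁻¹ = e := by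
          rw [hA c hc e e.2.1]; group
        have hcf : c * f * c⁻¹ = f := by
          rw [hA c hc f f.2.1]; group
        have h2 : (a : Ω) * (c * y * c⁻¹) * (a : Ω)⁻¹ * (c * y * c⁻¹)⁻¹ * e =
            (b : Ω) * (c * y * c⁻¹) * (b : Ω)⁻¹ * (c * y * c⁻¹)⁻¹ * f := by
          calc (a : Ω) * (c * y * c⁻¹) * (a : Ω)⁻¹ * (c * y * c⁻¹)⁻¹ * e
              = (a * c) * y * (a * c : Ω)⁻¹ * (c * y * c⁻¹)⁻¹ * e := by group
            _ = (c * a) * y * (c * a : Ω)⁻¹ * (c * y * c⁻¹)⁻¹ * (c * e * c⁻¹) := by rw [hca, hce]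
            _ = c * (((a : Ω) * y * (a : Ω)⁻¹ * y⁻¹) * e) * c⁻¹ := by group
            _ = c * (((b : Ω) * y * (b : Ω)⁻¹ * y⁻¹) * f) * c⁻¹ := by rw [h1]
            _ = (c * b) * y * (c * b : Ω)⁻¹ * (c * y * c⁻¹)⁻¹ * (c * f * c⁻¹) := by group
            _ = (b * c) * y * (b * c : Ω)⁻¹ * (c * y * c⁻¹)⁻¹ * f := by rw [hcb, hcf]
            _ = _ := by group
        have hcyV : c * y * c⁻¹ ∈ V := hAV c hc y hy
        let Y : Additive V := Additive.ofMul ⟨y, hy⟩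
        let Ee : Additive V := Additive.ofMul ⟨e, e.2.2⟩
        let Ff : Additive V := Additive.ofMul ⟨f, f.2.2⟩
        let Ya : Additive V := Additive.ofMul ⟨a * y * (a : Ω)⁻¹, hAV a a.2 y hy⟩
        let Yb : Additive V := Additive.ofMul ⟨b * y * (b : Ω)⁻¹, hAV b b.2 y hy⟩
        let Yc : Additive V := Additive.ofMul ⟨c * y * c⁻¹, hcyV⟩
        let Yac : Additive V := Additive.ofMul ⟨a * (c * y * c⁻¹) * (a : Ω)⁻¹, hAV a a.2 _ hcyV⟩
        let Ybc : Additive V := Additive.ofMul ⟨b * (c * y * c⁻¹) * (b : Ω)⁻¹, hAV b b.2 _ hcyV⟩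
        have e1 : Ya + -Y + Ee = Yb + -Y + Ff := Additive.toMul.injective (Subtype.ext h1)
        have e2 : Yac + -Yc + Ee = Ybc + -Yc + Ff := Additive.toMul.injective (Subtype.ext h2)
        have e3 : Ya - Yb = Ff - Ee := by
          rw [sub_eq_sub_iff_add_eq_add]
          calc Ya + Ee = Ya + -Y + Ee + Y := by abel
            _ = Yb + -Y + Ff + Y := by rw [e1]
            _ = Ff + Yb := by abel
        have e4 : Yac - Ybc = Ff - Ee := by
          rw [sub_eq_sub_iff_add_eq_add]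
          calc Yac + Ee = Yac + -Yc + Ee + Yc := by abel
            _ = Ybc + -Yc + Ff + Yc := by rw [e2]
            _ = Ff + Ybc := by abel
        have e5 : Yac - Ya = Ybc - Yb := by
          rw [sub_eq_sub_iff_add_eq_add]
          have := e4.trans e3.symm
          rw [sub_eq_sub_iff_add_eq_add] at this
          rw [this]; abel
        have e6 : (a : Ω) * (c * y * c⁻¹) * (a : Ω)⁻¹ * (a * y * (a : Ω)⁻¹)⁻¹ =
            (b : Ω) * (c * y * c⁻¹) * (b : Ω)⁻¹ * (b * y * (b : Ω)⁻¹)⁻¹ := by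
          rw [sub_eq_add_neg, sub_eq_add_neg] at e5
          exact congrArg (fun z : Additive V => ((Additive.toMul z : V) : Ω)) e5
        have e7 : (a : Ω) * (c * y * c⁻¹ * y⁻¹) * (a : Ω)⁻¹ = b * (c * y * c⁻¹ * y⁻¹) * (b : Ω)⁻¹ := by
          calc (a : Ω) * (c * y * c⁻¹ * y⁻¹) * (a : Ω)⁻¹ = (a : Ω) * (c * y * c⁻¹) * (a : Ω)⁻¹ *
                (a * y * (a : Ω)⁻¹)⁻¹ := by group
            _ = (b : Ω) * (c * y * c⁻¹) * (b : Ω)⁻¹ * (b * y * (b : Ω)⁻¹)⁻¹ := e6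
            _ = _ := by group
        calc (a : Ω)⁻¹ * b * (c * y * c⁻¹ * y⁻¹)
            = (a : Ω)⁻¹ * (b * (c * y * c⁻¹ * y⁻¹) * (b : Ω)⁻¹) * b := by group
          _ = (a : Ω)⁻¹ * ((a : Ω) * (c * y * c⁻¹ * y⁻¹) * (a : Ω)⁻¹) * b := by rw [e7]
          _ = (c * y * c⁻¹ * y⁻¹) * ((a : Ω)⁻¹ * b) := by group
      intro m hm
      exact (Subgroup.mem_centralizer_iff.1 (hle hm) _ rfl).symm
    -- counting 2
    have hcount2 : Nat.card A * Nat.card E ≤ Nat.card (Set.range Ψ) * Nat.card A1 := by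
      choose r hr using fun d : Set.range Ψ => d.2
      rw [← Nat.card_prod, ← Nat.card_prod]
      refine Nat.card_le_card_of_injective (fun x : A × E =>
        ((⟨Ψ x, ⟨x, rfl⟩⟩ : Set.range Ψ), (⟨((r ⟨Ψ x, ⟨x, rfl⟩⟩).1 : Ω)⁻¹ * x.1,
          hΨ _ _ (hr ⟨Ψ x, ⟨x, rfl⟩⟩)⟩ : A1))) ?_
      intro x x' h
      have h1 : Ψ x = Ψ x' := congrArg (fun z => ((z.1 : Set.range Ψ) : D)) h
      have h2 : ((r ⟨Ψ x, ⟨x, rfl⟩⟩).1 : Ω)⁻¹ * x.1 = ((r ⟨Ψ x', ⟨x', rfl⟩⟩).1 : Ω)⁻¹ * x'.1 :=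
        congrArg (fun z => ((z.2 : A1) : Ω)) h
      have h3 : (⟨Ψ x, ⟨x, rfl⟩⟩ : Set.range Ψ) = ⟨Ψ x', ⟨x', rfl⟩⟩ := Subtype.ext h1
      rw [h3] at h2
      have h4 : (x.1 : Ω) = x'.1 := mul_left_cancel h2
      have h5 : ((x.1 : Ω) * y * (x.1 : Ω)⁻¹ * y⁻¹) * x.2 =
        ((x'.1 : Ω) * y * (x'.1 : Ω)⁻¹ * y⁻¹) * x'.2 := congrArg Subtype.val h1
      rw [h4] at h5
      exact Prod.ext (Subtype.ext h4) (Subtype.ext (mul_left_cancel h5))
    have hsurj : Set.range Ψ = Set.univ := by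
      have hpos : 0 < Nat.card A1 := Nat.card_pos
      have h1 : Nat.card D * Nat.card A1 ≤ Nat.card (Set.range Ψ) * Nat.card A1 := by
        rw [mul_comm (Nat.card D)]
        exact hcount1.trans hcount2
      have h2 : Nat.card D ≤ Nat.card (Set.range Ψ) := Nat.le_of_mul_le_mul_right h1 hpos
      refine Set.eq_of_subset_of_ncard_le (Set.subset_univ _) ?_ (Set.toFinite _)
      rw [Set.ncard_univ, ← Nat.card_coe_set_eq]
      exact h2
    have hyr : (⟨y, hyD⟩ : D) ∈ Set.range Ψ := by rw [hsurj]; trivial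
    obtain ⟨⟨a, e⟩, hae⟩ := hyr
    have hae' : ((a : Ω) * y * (a : Ω)⁻¹ * y⁻¹) * e = y := congrArg Subtype.val hae
    obtain ⟨b, hb, hbn⟩ := hnc
    have h1 := comm_eq_comm_comm V hV a b y e (hA a a.2 b hb) hy e.2.2 (hAV a a.2) (hAV b hb)
      (by rw [hA b hb e e.2.1]; group) hae'.symm
    have h2 := eq_one_of_eq_comm T hT.isNilpotent a (b * y * b⁻¹ * y⁻¹) (hAT a.2)
      (hVT (hcV b hb)) h1
    apply hbn
    calc b * y = (b * y * b⁻¹ * y⁻¹) * y * b := by group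
      _ = y * b := by rw [h2]; group
  obtain ⟨a₀, ha₀, hne⟩ := main
  obtain ⟨k₀, hk₀⟩ := hT ⟨a₀, hAT ha₀.1⟩
  have hk₀' : a₀ ^ p ^ k₀ = 1 := by
    have := congrArg Subtype.val hk₀
    simpa using this
  obtain ⟨j, hj1, hj2⟩ := exists_pow_commute a₀ y k₀ hk₀' hne
  have hj : a₀ ^ j ∈ A1 := A1.pow_mem ha₀ j
  refine ⟨a₀ ^ j, hj.1, hj1, commute_pow_of_quadratic _ _ ?_ ?_ hj2⟩
  · exact hA1 _ hj _ (hmemM _ hj.1)
  · exact hV _ (hcV _ hj.1) _ hy

end Cfsg.Agent.H774
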