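import Cfsg.Agent.H802.FusAlp
import Cfsg.Agent.H774.ThompsonRep
import Cfsg.Prelude.Def_PLocal

/-!
# Normality in a fusion system of subgroups of the centre of `S` (helper774)
-/

set_option autoImplicit false

namespace Cfsg.Agent.H774

open scoped commutatorElement
open Cfsg Cfsg.FusionSystem Cfsg.Agent.H802

variable {Ω : Type*} [Group Ω] {S : Subgroup Ω}

/-- For a finite `Z`, an injective `ψ` on `P ⊔ Z` carrying `Z` into `Z` carries it onto `Z`. -/
theorem map_subgroupOf_eq {P Z : Subgroup Ω} [Finite Z] {ψ : ↥(P ⊔ Z) →* Ω}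
    (hψ : Function.Injective ψ)
    (h : ∀ (z : Ω) (_ : z ∈ Z) (hz : z ∈ P ⊔ Z), ψ ⟨z, hz⟩ ∈ Z) :
    (Z.subgroupOf (P ⊔ Z)).map ψ = Z := by
  have hle : (Z.subgroupOf (P ⊔ Z)).map ψ ≤ Z := by
    rintro _ ⟨z, hz, rfl⟩
    exact h z hz z.2
  have hcard : Nat.card ((Z.subgroupOf (P ⊔ Z)).map ψ) = Nat.card Z := by
    rw [← Nat.card_congr ((Z.subgroupOf (P ⊔ Z)).equivMapOfInjective ψ hψ).toEquiv]
    exact Nat.card_congr (Subgroup.subgroupOfEquivOfLe le_sup_right).toEquiv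
  exact Subgroup.eq_of_le_of_card_ge hle hcard.ge

theorem apply_mem_of_map_eq {P Z : Subgroup Ω} {ψ : ↥(P ⊔ Z) →* Ω}
    (h : (Z.subgroupOf (P ⊔ Z)).map ψ = Z) (z : Ω) (hz : z ∈ Z) (hz' : z ∈ P ⊔ Z) :
    ψ ⟨z, hz'⟩ ∈ Z :=
  h.le ⟨⟨z, hz'⟩, hz, rfl⟩

/-- The system of the maps of `F` that extend to the central subgroup `Z` of `S`, preserving it: the normalizer system
of `Z`. -/
def fixSys (F : FusionSystem S) (Z : Subgroup Ω) [Finite Z]
    (hZ : Z ≤ S ⊓ Subgroup.centralizer (S : Set Ω)) : FusionSystem S where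
  Hom P := {φ | φ ∈ F.Hom P ∧ ∃ ψ ∈ F.Hom (P ⊔ Z),
    (∀ x : P, ψ (Subgroup.inclusion le_sup_left x) = φ x) ∧ (Z.subgroupOf (P ⊔ Z)).map ψ = Z}
  le_of_mem h := F.le_of_mem h.1
  injective_of_mem h := F.injective_of_mem h.1
  conj_mem := by
    intro P g hP hg
    have hZS : Z ≤ S := hZ.trans inf_le_left
    refine ⟨F.conj_mem hP hg, conjHom (P ⊔ Z) g, F.conj_mem (sup_le hP hZS) hg, fun x => rfl, ?_⟩
    refine map_subgroupOf_eq (F.injective_of_mem (F.conj_mem (sup_le hP hZS) hg)) ?_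
    intro z hz hz'
    show g * z * g⁻¹ ∈ Z
    have h1 := Subgroup.mem_centralizer_iff.1 (hZ hz).2 g hg
    rw [h1, mul_inv_cancel_right]
    exact hz
  comp_mem := by
    rintro P Q φ ψ ⟨hφ, φ', hφ', h1, h2⟩ ⟨hψ, ψ', hψ', h3, h4⟩ h
    refine ⟨F.comp_mem hφ hψ h, ?_⟩
    have hmem : ∀ x : ↥(P ⊔ Z), φ' x ∈ Q ⊔ Z := by
      have hle : P ⊔ Z ≤ ((Q ⊔ Z).comap φ').map (P ⊔ Z).subtype := by
        refine sup_le ?_ ?_
        · intro x hx
          refine ⟨⟨x, Subgroup.mem_sup_left hx⟩, ?_, rfl⟩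
          show φ' _ ∈ Q ⊔ Z
          have := h1 ⟨x, hx⟩
          have h5 : φ' ⟨x, Subgroup.mem_sup_left hx⟩ = φ ⟨x, hx⟩ := this
          rw [h5]
          exact Subgroup.mem_sup_left (h _)
        · intro x hx
          refine ⟨⟨x, Subgroup.mem_sup_right hx⟩, ?_, rfl⟩
          exact Subgroup.mem_sup_right (apply_mem_of_map_eq h2 x hx _)
      intro x
      obtain ⟨y, hy, hyx⟩ := hle x.2
      have : y = x := Subtype.ext hyx
      rw [← this]
      exact hy
    obtain ⟨χ, hχ, hχe⟩ := exists_comp hφ' hψ' hmem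
    refine ⟨χ, hχ, ?_, map_subgroupOf_eq (F.injective_of_mem hχ) ?_⟩
    · intro x
      rw [hχe]
      have h5 : (⟨φ' (Subgroup.inclusion le_sup_left x), hmem _⟩ : ↥(Q ⊔ Z)) =
          Subgroup.inclusion le_sup_left ⟨φ x, h x⟩ := Subtype.ext (h1 x)
      rw [h5, h3]
      rfl
    · intro z hz hz'
      rw [hχe]
      exact apply_mem_of_map_eq h4 _ (apply_mem_of_map_eq h2 z hz hz') _
  inv_mem := by
    rintro P φ ⟨hφ, φ', hφ', h1, h2⟩
    obtain ⟨ψ, hψ, hψe⟩ := F.inv_mem hφ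
    have hr : φ'.range = φ.range ⊔ Z := by
      apply le_antisymm
      · have hle : P ⊔ Z ≤ ((φ.range ⊔ Z).comap φ').map (P ⊔ Z).subtype := by
          refine sup_le ?_ ?_
          · intro x hx
            refine ⟨⟨x, Subgroup.mem_sup_left hx⟩, ?_, rfl⟩
            show φ' _ ∈ φ.range ⊔ Z
            have h5 : φ' ⟨x, Subgroup.mem_sup_left hx⟩ = φ ⟨x, hx⟩ := h1 ⟨x, hx⟩
            rw [h5]
            exact Subgroup.mem_sup_left ⟨_, rfl⟩
          · intro x hx
            refine ⟨⟨x, Subgroup.mem_sup_right hx⟩, ?_, rfl⟩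
            exact Subgroup.mem_sup_right (apply_mem_of_map_eq h2 x hx _)
        rintro _ ⟨x, rfl⟩
        obtain ⟨y, hy, hyx⟩ := hle x.2
        have : y = x := Subtype.ext hyx
        rw [← this]
        exact hy
      · refine sup_le ?_ ?_
        · rintro _ ⟨x, rfl⟩
          exact ⟨_, h1 x⟩
        · intro z hz
          rw [← h2] at hz
          obtain ⟨w, -, hw⟩ := hz
          exact ⟨w, hw⟩
    obtain ⟨ψ', hψ', -, h3, -⟩ := exists_inv hφ' hr
    refine ⟨ψ, ⟨hψ, ψ', hψ', ?_, map_subgroupOf_eq (F.injective_of_mem hψ') ?_⟩, hψe⟩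
    · rintro ⟨_, x, rfl⟩
      rw [hψe x]
      have h4 : φ' (Subgroup.inclusion le_sup_left x) ∈ φ.range ⊔ Z := by
        rw [h1 x]
        exact (le_sup_left : φ.range ≤ φ.range ⊔ Z) ⟨x, rfl⟩
      have h5 := h3 (Subgroup.inclusion le_sup_left x) h4
      have h6 : (⟨φ' (Subgroup.inclusion le_sup_left x), h4⟩ : ↥(φ.range ⊔ Z)) =
          Subgroup.inclusion le_sup_left (⟨φ x, ⟨x, rfl⟩⟩ : φ.range) := Subtype.ext (h1 x)
      rw [h6] at h5
      exact h5
    · intro z hz hz'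
      have hz2 := hz
      rw [← h2] at hz2
      obtain ⟨w, hw, hwz⟩ := hz2
      have h5 := h3 w (by rw [hwz]; exact hz')
      have h6 : (⟨φ' w, by rw [hwz]; exact hz'⟩ : ↥(φ.range ⊔ Z)) = ⟨z, hz'⟩ := Subtype.ext hwz
      rw [h6] at h5
      rw [h5]
      exact hw

/-- **Normality criterion for a subgroup `Z` of `Z(S)`**: it is enough that `Z` be invariant under `Aut_F(Q)` for the
fully normalized centric `Q`, and one may assume that all maps of `F` with larger source preserve `Z`. -/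
theorem isNormal_of_centric_aut {p : ℕ} [Fact p.Prime] [Finite S] (hS : IsPGroup p S)
    {F : FusionSystem S} (hF : F.IsSaturated p) (Z : Subgroup Ω)
    (hZ : Z ≤ S ⊓ Subgroup.centralizer (S : Set Ω))
    (h : ∀ Q : Subgroup Ω, F.IsFullyNormalized Q → F.IsCentric Q → Z ≤ Q →
      (∀ R : Subgroup Ω, Nat.card Q < Nat.card R → ∀ φ ∈ F.Hom R, ∀ z ∈ Z, ∀ hz : z ∈ R,
        φ ⟨z, hz⟩ ∈ Z) →
      ∀ α ∈ F.autGroup Q, ∀ z ∈ Z, ∀ hz : z ∈ Q, ((α ⟨z, hz⟩ : Q) : Ω) ∈ Z) : F.IsNormal Z := by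
  have hfZ : Finite Z := finite_of_le (hZ.trans inf_le_left)
  have hle : ∀ P, F.Hom P ⊆ (fixSys F Z hZ).Hom P := by
    refine le_of_centric hS hF (fixSys F Z hZ) ?_
    intro Q hQ hQc hbig α hα
    have hZQ : Z ≤ Q := by
      intro z hz
      refine hQc.2 Q (isConj_refl F hQ.1) ⟨(hZ hz).1, ?_⟩
      exact Subgroup.centralizer_le hQ.1 (hZ hz).2
    have hkey := h Q hQ hQc hZQ ?_ α hα
    · rw [mem_autGroup_iff _ hQ.1]
      have hαF := (mem_autGroup_iff F hQ.1 α).1 hα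
      refine ⟨hαF, ?_⟩
      have hQZ : Q ⊔ Z = Q := sup_eq_left.2 hZQ
      refine ⟨(Q.subtype.comp α.toMonoidHom).comp (Subgroup.inclusion hQZ.le),
        restrict_mem hαF hQZ.le, fun x => rfl, map_subgroupOf_eq ?_ ?_⟩
      · exact F.injective_of_mem (restrict_mem hαF hQZ.le)
      · intro z hz hz'
        exact hkey z hz (hZQ hz)
    · intro R hR φ hφ z hz hzR
      obtain ⟨-, ψ, hψ, h1, h2⟩ := hbig R hR hφ
      have h3 := h1 ⟨z, hzR⟩
      rw [← h3]
      exact apply_mem_of_map_eq h2 z hz _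
  refine ⟨hZ.trans inf_le_left, fun P φ hφ => ?_⟩
  exact (hle P hφ).2

/-- Extension of a fully normalized subgroup's automorphism normalizing `Aut_S(Q)` to `N_S(Q)`. -/
theorem exists_extension_of_conj {p : ℕ} [Fact p.Prime] [Finite S] (hS : IsPGroup p S)
    {F : FusionSystem S} (hF : F.IsSaturated p) {Q R : Subgroup Ω} (hQ : F.IsFullyNormalized Q)
    (hR : R ≤ normalizerIn S Q)
    {ν : MulAut Q} (hν : ν ∈ F.autGroup Q)
    (h : ∀ β ∈ autInducedBy R Q, ν * β * ν⁻¹ ∈ autInducedBy S Q) :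
    ∃ ψ ∈ F.Hom (R ⊔ Q), ∀ (x : Ω) (hx : x ∈ Q) (hx' : x ∈ R ⊔ Q), ψ ⟨x, hx'⟩ = (ν ⟨x, hx⟩ : Q) := by
  have hνF := (mem_autGroup_iff F hQ.1 ν).1 hν
  have hrec := isReceptive_of_isFullyNormalized hS hF hQ
  have hr : (Q.subtype.comp ν.toMonoidHom).range = Q := by
    have : Finite Q := finite_of_le hQ.1
    exact range_eq_of_mapsTo hνF (fun x => (ν x).2)
  obtain ⟨ψ, hψ, hψe⟩ := hrec.2 Q _ hνF hr
  have hle : R ⊔ Q ≤ extender S Q (Q.subtype.comp ν.toMonoidHom) := by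
    refine sup_le ?_ (le_extender hQ.1 (hom_apply_mem hνF))
    intro g hg
    rw [mem_extender_iff]
    refine ⟨(hR hg).1, (hR hg).2, ?_⟩
    obtain ⟨c, hc⟩ := exists_conjAut (hR hg).2
    have hcm : c ∈ autInducedBy R Q := (mem_autInducedBy_iff R Q c).2 ⟨g, hg, hc⟩
    obtain ⟨k, hk, hke⟩ := (mem_autInducedBy_iff S Q _).1 (h c hcm)
    refine ⟨k, hk, fun x hx => ?_⟩
    have h1 := hke (ν x)
    have h2 : (ν * c * ν⁻¹) (ν x) = ν (c x) := by
      rw [MulAut.mul_apply, MulAut.mul_apply, MulAut.inv_apply_self]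
    rw [h2] at h1
    have h3 : (⟨g * x * g⁻¹, hx⟩ : Q) = c x := Subtype.ext (hc x).symm
    show ((ν ⟨g * x * g⁻¹, hx⟩ : Q) : Ω) = k * ((ν x : Q) : Ω) * k⁻¹
    rw [h3, h1]
  refine ⟨ψ.comp (Subgroup.inclusion hle), restrict_mem hψ hle, fun x hx hx' => ?_⟩
  exact hψe x hx _

/-- **Class bound**: if `S` has class at most `n(p-1)+1` then the subgroup generated by the `p^n`-th powers of the elements
of `Z(S)` is normal in every saturated fusion system over `S`. -/
theorem isNormal_powerClosure_of_class {p : ℕ} [hp : Fact p.Prime] [Finite S] (hS : IsPGroup p S)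
    {F : FusionSystem S} (hF : F.IsSaturated p) (n : ℕ)
    (hcl : Subgroup.lowerCentralSeries S (n * (p - 1) + 1) = ⊥) :
    F.IsNormal (Cfsg.powerClosure p n (S ⊓ Subgroup.centralizer (S : Set Ω))) := by
  set Z := Cfsg.powerClosure p n (S ⊓ Subgroup.centralizer (S : Set Ω)) with hZdef
  have hZ : Z ≤ S ⊓ Subgroup.centralizer (S : Set Ω) := by
    rw [hZdef, Cfsg.powerClosure, Subgroup.closure_le]
    rintro _ ⟨x, hx, rfl⟩
    exact Subgroup.pow_mem _ hx _
  refine isNormal_of_centric_aut hS hF Z hZ ?_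
  intro Q hQ hQc hZQ hbig α hα
  have hfQ : Finite Q := finite_of_le hQ.1
  have hcQ : S ⊓ Subgroup.centralizer (S : Set Ω) ≤ Q := by
    intro z hz
    refine hQc.2 Q (isConj_refl F hQ.1) ⟨hz.1, ?_⟩
    exact Subgroup.centralizer_le hQ.1 hz.2
  -- it is enough to treat the generators
  suffices hgen : ∀ x ∈ S ⊓ Subgroup.centralizer (S : Set Ω), ∀ hx : x ^ p ^ n ∈ Q,
      ((α ⟨x ^ p ^ n, hx⟩ : Q) : Ω) ∈ Z by
    intro z hz hzQ
    have hle : Z ≤ ((Z.subgroupOf Q).comap α.toMonoidHom).map Q.subtype := by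
      rw [hZdef, Cfsg.powerClosure, Subgroup.closure_le]
      rintro _ ⟨x, hx, rfl⟩
      exact ⟨⟨x ^ p ^ n, Q.pow_mem (hcQ hx) _⟩, hgen x hx _, rfl⟩
    obtain ⟨y, hy, hyz⟩ := hle hz
    have : y = ⟨z, hzQ⟩ := Subtype.ext hyz
    rw [← this]
    exact hy
  intro x hx hxQ
  by_cases hQS : Q = S
  · -- the centre of `S` is characteristic
    have h1 : ((α ⟨x, hcQ hx⟩ : Q) : Ω) ∈ S ⊓ Subgroup.centralizer (S : Set Ω) := by
      refine ⟨hQ.1 (α _).2, Subgroup.mem_centralizer_iff.2 fun g hg => ?_⟩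
      have hgQ : g ∈ Q := by rw [hQS]; exact hg
      have h2 := Subgroup.mem_centralizer_iff.1 hx.2 ((α⁻¹ ⟨g, hgQ⟩ : Q) : Ω) (hQ.1 (α⁻¹ _).2)
      have h3 : (α⁻¹ ⟨g, hgQ⟩ : Q) * ⟨x, hcQ hx⟩ = ⟨x, hcQ hx⟩ * (α⁻¹ ⟨g, hgQ⟩ : Q) := Subtype.ext h2
      have h4 := congrArg α h3
      rw [map_mul, map_mul, MulAut.apply_inv_self] at h4
      exact congrArg Subtype.val h4
    have h2 : (⟨x ^ p ^ n, hxQ⟩ : Q) = ⟨x, hcQ hx⟩ ^ p ^ n := rfl
    rw [h2, map_pow]
    exact Subgroup.subset_closure ⟨_, h1, rfl⟩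
  · have hcard := card_lt_card_normalizerIn hS hQ.1 hQS
    have hN : Nat.card Q < Nat.card (normalizerIn S Q ⊔ Q : Subgroup Ω) := by
      rwa [sup_eq_left.2 (le_normalizerIn hQ.1)]
    obtain ⟨-, P, hP⟩ := isFullyAutomized_of_isFullyNormalized hS hF hQ
    have hfG : Finite (F.autGroup Q) := inferInstance
    have hPmem : ∀ a : F.autGroup Q, a ∈ (P : Subgroup (F.autGroup Q)) ↔
        ∃ g ∈ S, ∀ x : Q, (((a : MulAut Q) x : Q) : Ω) = g * (x : Ω) * g⁻¹ := by
      intro a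
      rw [hP, Subgroup.mem_subgroupOf, mem_autInducedBy_iff]
    let x' : Q := ⟨x, hcQ hx⟩
    have hx' : ∀ a ∈ (P : Subgroup (F.autGroup Q)), a • x' = x' := by
      intro a ha
      obtain ⟨g, hg, hga⟩ := (hPmem a).1 ha
      apply Subtype.ext
      show (((a : MulAut Q) x' : Q) : Ω) = x
      rw [hga]
      show g * x * g⁻¹ = x
      rw [Subgroup.mem_centralizer_iff.1 hx.2 g hg, mul_inv_cancel_right]
    -- `x` is central in `Q`
    have hxc : ∀ (a : F.autGroup Q) (q : Q), q * (a • x') = (a • x') * q := by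
      intro a q
      have h1 : (a⁻¹ • q : Q) * x' = x' * (a⁻¹ • q : Q) :=
        Subtype.ext (Subgroup.mem_centralizer_iff.1 hx.2 _ (hQ.1 (a⁻¹ • q : Q).2))
      have h2 := congrArg (fun z : Q => a • z) h1
      simp only [smul_mul', smul_inv_smul] at h2
      exact h2
    -- the abelian subgroup `Z(Q)`
    let V : Subgroup Ω := Q ⊓ Subgroup.centralizer (Q : Set Ω)
    have hfix := sylow_fix P (P : Subgroup (F.autGroup Q)) P.2 (fun y : Q => y ^ p ^ n)
      (fun g y => (smul_pow' g y _).symm) x' hx' ?_ ⟨α, hα⟩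
    · -- Burnside
      obtain ⟨ν, hν1, hν2⟩ := exists_normalizer_smul P (x' ^ p ^ n)
        (fun a ha => by rw [smul_pow', hx' a ha]) ⟨α, hα⟩ (fun a ha => by
          have := hfix a ha
          rw [smul_pow']
          exact this)
      obtain ⟨ψ, hψ, hψe⟩ := exists_extension_of_conj hS hF hQ (le_refl (normalizerIn S Q)) ν.2 (by
        intro β hβ
        have hβS : β ∈ autInducedBy S Q := by
          obtain ⟨g, hg, hgb⟩ := (mem_autInducedBy_iff _ _ _).1 hβ
          exact (mem_autInducedBy_iff _ _ _).2 ⟨g, hg.1, hgb⟩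
        have hβG := autInducedBy_le_autGroup F hQ.1 hβS
        have h1 : (⟨β, hβG⟩ : F.autGroup Q) ∈ (P : Subgroup (F.autGroup Q)) := by
          rw [hP]; exact hβS
        have h2 := hν1 _ h1
        rw [hP] at h2
        exact h2)
      have h3 := hbig _ hN ψ hψ (x ^ p ^ n) (by
        exact Subgroup.subset_closure ⟨x, hx, rfl⟩) (Subgroup.mem_sup_right hxQ)
      rw [hψe _ hxQ] at h3
      have h4 : ((ν : MulAut Q) ⟨x ^ p ^ n, hxQ⟩ : Q) = α ⟨x ^ p ^ n, hxQ⟩ := hν2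
      rw [← h4]
      exact h3
    · -- the hypothesis of `sylow_fix`
      rintro g ⟨t, ht, htne⟩
      obtain ⟨s, hs, hst⟩ := (hPmem t).1 ht
      set y : Q := g • x' with hy
      have hyV : (y : Ω) ∈ V := ⟨y.2, Subgroup.mem_centralizer_iff.2 fun q hq =>
        congrArg Subtype.val (hxc g ⟨q, hq⟩)⟩
      have hsQ : s ∈ Subgroup.normalizer (Q : Set Ω) := mem_normalizer_of_aut hst
      have hsy : s * (y : Ω) ≠ y * s := by
        intro heq
        apply htne
        apply Subtype.ext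
        show (((t : MulAut Q) y : Q) : Ω) = y
        rw [hst, heq, mul_inv_cancel_right]
      obtain ⟨k₀, hk₀⟩ := hS ⟨s, hs⟩
      have hk₀' : s ^ p ^ k₀ = 1 := by
        have := congrArg Subtype.val hk₀
        simpa using this
      obtain ⟨j, hj1, hj2⟩ := exists_pow_commute s (y : Ω) k₀ hk₀' hsy
      have htj : ∀ (m : ℕ) (q : Q), ((((t ^ m : F.autGroup Q) : MulAut Q) q : Q) : Ω) =
          s ^ m * q * (s ^ m)⁻¹ := by
        intro m
        induction m with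
        | zero => intro q; simp
        | succ m ih =>
          intro q
          rw [pow_succ, Subgroup.coe_mul, MulAut.mul_apply, ih, hst, pow_succ]
          group
      have hsj : s ^ j ∈ Subgroup.normalizer (Q : Set Ω) := Subgroup.pow_mem _ hsQ j
      refine ⟨t ^ j, Subgroup.pow_mem _ ht j, ?_, ?_⟩
      · intro heq
        apply hj1
        have h1 := congrArg Subtype.val heq
        have h2 : s ^ j * (y : Ω) * (s ^ j)⁻¹ = y := (htj j y).symm.trans h1
        calc s ^ j * (y : Ω) = (s ^ j * (y : Ω) * (s ^ j)⁻¹) * s ^ j := by group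
          _ = y * s ^ j := by rw [h2]
      · apply Subtype.ext
        have h1 : (((t ^ j) • (y ^ p ^ n) : Q) : Ω) = s ^ j * ((y ^ p ^ n : Q) : Ω) * (s ^ j)⁻¹ :=
          htj j _
        show (((t ^ j) • (y ^ p ^ n) : Q) : Ω) = ((y ^ p ^ n : Q) : Ω)
        rw [h1]
        have hVab : ∀ a ∈ V, ∀ b ∈ V, a * b = b * a := fun a ha b hb =>
          Subgroup.mem_centralizer_iff.1 hb.2 a ha.1
        have hVn : ∀ v ∈ V, s ^ j * v * (s ^ j)⁻¹ ∈ V := by
          intro v hv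
          refine ⟨(Subgroup.mem_normalizer_iff.1 hsj v).1 hv.1,
            Subgroup.mem_centralizer_iff.2 fun q hq => ?_⟩
          have hq' : (s ^ j)⁻¹ * q * s ^ j ∈ Q := by
            have := (Subgroup.mem_normalizer_iff.1 (Subgroup.inv_mem _ hsj) q).1 hq
            simpa using this
          have h3 := Subgroup.mem_centralizer_iff.1 hv.2 _ hq'
          calc q * (s ^ j * v * (s ^ j)⁻¹) = s ^ j * (((s ^ j)⁻¹ * q * s ^ j) * v) * (s ^ j)⁻¹ := by
                group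
            _ = s ^ j * (v * ((s ^ j)⁻¹ * q * s ^ j)) * (s ^ j)⁻¹ := by rw [h3]
            _ = s ^ j * v * (s ^ j)⁻¹ * q := by group
        have h4 := conj_pow_eq_of_class hp.out n V hVab (s ^ j) hVn (S.lowerCentralSeries) (by
            intro i v _ hv
            rw [Subgroup.lowerCentralSeries_succ]
            have h5 : ⁅v, s ^ j⁆ ∈ ⁅S.lowerCentralSeries i, S⁆ :=
              Subgroup.commutator_mem_commutator hv (S.pow_mem hs j)
            have h6 := Subgroup.inv_mem _ h5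
            rw [commutatorElement_inv, commutatorElement_def] at h6
            exact h6) hcl (y : Ω) hyV (hQ.1 y.2) (by
            rw [hj2, mul_inv_cancel_right])
        exact h4

end Cfsg.Agent.H774
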