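import Mathlib

/-!
# Sylow intersections and fixed points (helper774)

Three elementary facts about a finite group `G` and its Sylow `p`-subgroups, used for the theorems of Glauberman
on weakly closed elements.
-/

set_option autoImplicit false

namespace Cfsg.Agent.H774

open scoped Pointwise

/-- Let `x` be fixed by a Sylow `p`-subgroup `P` of `G`, let `T` be a `p`-subgroup and `f` an equivariant map.
If for all `g` such that `T` does not fix `g • x`, some element of `T` does not fix `g • x` but fixes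
`f (g • x)`, then `T` fixes all `f (g • x)`. -/
theorem sylow_fix {G X Y : Type*} [Group G] [Finite G] [MulAction G X] [MulAction G Y] {p : ℕ}
    [Fact p.Prime] (P : Sylow p G) (T : Subgroup G) (hT : IsPGroup p T) (f : X → Y)
    (hf : ∀ (g : G) (x : X), f (g • x) = g • f x) (x : X) (hx : ∀ g ∈ (P : Subgroup G), g • x = x)
    (H : ∀ g : G, (∃ t ∈ T, t • g • x ≠ g • x) →
      ∃ a ∈ T, a • g • x ≠ g • x ∧ a • f (g • x) = f (g • x)) :
    ∀ g : G, ∀ t ∈ T, t • f (g • x) = f (g • x) := by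
  intro g t ht
  set z := f (g • x) with hz
  set C := MulAction.stabilizer G z with hC
  have hPg : ((g • P : Sylow p G) : Subgroup G) ≤ C := by
    intro h hh
    rw [Sylow.coe_subgroup_smul, Subgroup.mem_pointwise_smul_iff_inv_smul_mem] at hh
    rw [hC, MulAction.mem_stabilizer_iff, hz, ← hf]
    have h1 := hx _ hh
    have h2 : (((MulAut.conj g)⁻¹ • h : G)) = g⁻¹ * h * g := by
      simp [MulAut.smul_def, MulAut.conj_inv_apply]
    rw [h2, mul_smul, mul_smul, inv_smul_eq_iff] at h1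
    rw [h1]
  have hR : IsPGroup p (T.subgroupOf C) := by
    have := hT.to_le (H := T ⊓ C) inf_le_left
    intro r
    obtain ⟨k, hk⟩ := hT ⟨(r : G), r.2⟩
    refine ⟨k, ?_⟩
    have h3 := congrArg Subtype.val hk
    apply Subtype.ext
    apply Subtype.ext
    simpa using h3
  obtain ⟨R', hR'⟩ := hR.exists_le_sylow
  obtain ⟨c, hc⟩ := MulAction.exists_smul_eq C ((g • P : Sylow p G).subtype hPg) R'
  -- y = c g x
  have hcz : (c : G) • z = z := c.2
  have hy : f (((c : G) * g) • x) = z := by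
    rw [mul_smul, hf, ← hz, hcz]
  have hfix : ∀ a ∈ T, a ∈ C → a • ((c : G) * g) • x = ((c : G) * g) • x := by
    intro a haT haC
    have h1 : (⟨a, haC⟩ : C) ∈ (R' : Subgroup C) := hR' haT
    rw [← hc, Sylow.coe_subgroup_smul, Subgroup.mem_pointwise_smul_iff_inv_smul_mem] at h1
    have h2 : (((MulAut.conj c)⁻¹ • (⟨a, haC⟩ : C) : C) : G) ∈ ((g • P : Sylow p G) : Subgroup G) := by
      exact h1
    rw [Sylow.coe_subgroup_smul, Subgroup.mem_pointwise_smul_iff_inv_smul_mem] at h2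
    have h3 : ((MulAut.conj g)⁻¹ • ((((MulAut.conj c)⁻¹ • (⟨a, haC⟩ : C) : C) : G)) : G) =
        ((c : G) * g)⁻¹ * a * ((c : G) * g) := by
      simp [MulAut.smul_def, MulAut.conj_inv_apply, mul_assoc]
    rw [h3] at h2
    have h4 := hx _ h2
    rw [mul_smul, mul_smul, inv_smul_eq_iff] at h4
    exact h4
  have hall : ∀ a ∈ T, a • ((c : G) * g) • x = ((c : G) * g) • x := by
    by_contra hne
    push Not at hne
    obtain ⟨a, haT, ha1, ha2⟩ := H ((c : G) * g) hne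
    rw [hy] at ha2
    exact ha1 (hfix a haT ha2)
  have h5 := hall t ht
  rw [← hy, ← hf, h5]

/-- If `U` is a subgroup of the Sylow `p`-subgroup `P`, `K` is normal and `a U a⁻¹ ≤ K P`, then
`(k⁻¹a) U (k⁻¹a)⁻¹ ≤ P` for some `k ∈ K`. -/
theorem exists_mem_conj_le {G : Type*} [Group G] [Finite G] {p : ℕ} [Fact p.Prime] (P : Sylow p G)
    (K : Subgroup G) [K.Normal] (U : Subgroup G) (hU : IsPGroup p U) (a : G)
    (ha : ∀ u ∈ U, a * u * a⁻¹ ∈ K ⊔ (P : Subgroup G)) :
    ∃ k ∈ K, ∀ u ∈ U, (k⁻¹ * a) * u * (k⁻¹ * a)⁻¹ ∈ (P : Subgroup G) := by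
  set L := K ⊔ (P : Subgroup G) with hL
  have hPL : (P : Subgroup G) ≤ L := le_sup_right
  set U' : Subgroup G := U.map (MulAut.conj a).toMonoidHom with hU'
  have hU'L : U' ≤ L := by
    rintro _ ⟨u, hu, rfl⟩
    exact ha u hu
  have hU'p : IsPGroup p (U'.subgroupOf L) := by
    have h1 : IsPGroup p U' := hU.map _
    intro r
    obtain ⟨k, hk⟩ := h1 ⟨(r : G), r.2⟩
    refine ⟨k, ?_⟩
    have h3 := congrArg Subtype.val hk
    apply Subtype.ext
    apply Subtype.ext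
    simpa using h3
  obtain ⟨R, hR⟩ := hU'p.exists_le_sylow
  obtain ⟨c, hc⟩ := MulAction.exists_smul_eq L (P.subtype hPL) R
  obtain ⟨k, hk, s, hs, hks⟩ := Subgroup.mem_sup_of_normal_left.1 (show (c : G) ∈ K ⊔ (P : Subgroup G) from c.2)
  refine ⟨k, hk, fun u hu => ?_⟩
  have h1 : a * u * a⁻¹ ∈ L := ha u hu
  have h2 : (⟨a * u * a⁻¹, h1⟩ : L) ∈ (R : Subgroup L) := hR ⟨u, hu, rfl⟩
  rw [← hc, Sylow.coe_subgroup_smul, Subgroup.mem_pointwise_smul_iff_inv_smul_mem] at h2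
  have h3 : (((MulAut.conj c)⁻¹ • (⟨a * u * a⁻¹, h1⟩ : L) : L) : G) ∈ (P : Subgroup G) := h2
  have h4 : (((MulAut.conj c)⁻¹ • (⟨a * u * a⁻¹, h1⟩ : L) : L) : G) =
      s⁻¹ * ((k⁻¹ * a) * u * (k⁻¹ * a)⁻¹) * s := by
    simp only [MulAut.smul_def, MulAut.conj_inv_apply, Subgroup.coe_mul, Subgroup.coe_inv, ← hks]
    group
  rw [h4] at h3
  have h5 := (P : Subgroup G).mul_mem ((P : Subgroup G).mul_mem hs h3) ((P : Subgroup G).inv_mem hs)
  have h6 : s * (s⁻¹ * ((k⁻¹ * a) * u * (k⁻¹ * a)⁻¹) * s) * s⁻¹ = (k⁻¹ * a) * u * (k⁻¹ * a)⁻¹ := by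
    group
  rwa [h6] at h5

/-- Burnside's argument: if `z` and `g • z` are both fixed by the Sylow subgroup `P` then `g • z = n • z` for
some `n` normalizing `P`, with `n = g c` for some `c` fixing `z`. -/
theorem exists_normalizer_smul {G X : Type*} [Group G] [Finite G] [MulAction G X] {p : ℕ}
    [Fact p.Prime] (P : Sylow p G) (z : X) (hz : ∀ h ∈ (P : Subgroup G), h • z = z) (g : G)
    (hgz : ∀ h ∈ (P : Subgroup G), h • g • z = g • z) :
    ∃ n : G, (∀ h ∈ (P : Subgroup G), n * h * n⁻¹ ∈ (P : Subgroup G)) ∧ n • z = g • z := by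
  set C := MulAction.stabilizer G z with hC
  have h1 : (P : Subgroup G) ≤ C := fun h hh => hz h hh
  have h2 : ((g⁻¹ • P : Sylow p G) : Subgroup G) ≤ C := by
    intro h hh
    rw [Sylow.coe_subgroup_smul, Subgroup.mem_pointwise_smul_iff_inv_smul_mem] at hh
    rw [hC, MulAction.mem_stabilizer_iff]
    have h3 := hgz _ hh
    have h4 : (((MulAut.conj g⁻¹)⁻¹ • h : G)) = g * h * g⁻¹ := by
      simp [MulAut.smul_def]
    rw [h4, smul_smul, inv_mul_cancel_right, mul_smul, smul_left_cancel_iff] at h3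
    exact h3
  obtain ⟨c, hc⟩ := MulAction.exists_smul_eq C (P.subtype h1) ((g⁻¹ • P : Sylow p G).subtype h2)
  refine ⟨g * c, ?_, by rw [mul_smul]; congr 1; exact c.2⟩
  intro h hh
  have h5 : (⟨(c : G) * h * (c : G)⁻¹, C.mul_mem (C.mul_mem c.2 (h1 hh)) (C.inv_mem c.2)⟩ : C) ∈
      ((g⁻¹ • P : Sylow p G).subtype h2 : Subgroup C) := by
    rw [← hc, Sylow.coe_subgroup_smul, Subgroup.mem_pointwise_smul_iff_inv_smul_mem]
    have h6 : ((MulAut.conj c)⁻¹ • (⟨(c : G) * h * (c : G)⁻¹,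
        C.mul_mem (C.mul_mem c.2 (h1 hh)) (C.inv_mem c.2)⟩ : C)) = ⟨h, h1 hh⟩ := by
      apply Subtype.ext
      simp only [MulAut.smul_def, MulAut.conj_inv_apply, Subgroup.coe_mul, Subgroup.coe_inv]
      group
    rw [h6]
    exact hh
  have h7 : (c : G) * h * (c : G)⁻¹ ∈ ((g⁻¹ • P : Sylow p G) : Subgroup G) := h5
  rw [Sylow.coe_subgroup_smul, Subgroup.mem_pointwise_smul_iff_inv_smul_mem] at h7
  have h8 : (((MulAut.conj g⁻¹)⁻¹ • ((c : G) * h * (c : G)⁻¹) : G)) = g * c * h * (g * c)⁻¹ := by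
    simp [MulAut.smul_def, mul_assoc]
  rwa [h8] at h7

end Cfsg.Agent.H774
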